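import Mathlib
import Cfsg.Agent.H524.ClassSize
import Cfsg.Agent.Lib.CoprimeHyperplane
set_option linter.all false

-- part: H683/TwoSize
section
/-!
# Normal subgroups with two `G`-class sizes: tools

* `pow_mem_of_fix`, `ident`: two commuting automorphisms of order dividing `p` of an abelian group;
* `exists_primary`: an element outside a subgroup has a primary power outside of it;
* `cz_le_of_coprime`, `good_pair`: centralizers of commuting coprime elements.
-/

set_option autoImplicit false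

namespace Cfsg.Agent.H683.TwoSize

open Subgroup
open scoped commutatorElement

section Ident

variable {C : Type*} [CommGroup C] {p : ℕ} [hp : Fact p.Prime]

theorem norm_fixed {γ : MulAut C} (hγ : γ ^ p = 1) (w : C) :
    γ (∏ i : ZMod p, (γ ^ i.val) w) = ∏ i : ZMod p, (γ ^ i.val) w := by
  rw [map_prod, ← Equiv.prod_comp (Equiv.addRight (1 : ZMod p)) (fun i => (γ ^ i.val) w)]
  refine Finset.prod_congr rfl fun i _ => ?_
  rw [Equiv.coe_addRight, Cfsg.Agent.Lib.CoprimeHyperplane.pow_val_add hγ,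
    Cfsg.Agent.Lib.CoprimeHyperplane.pow_val_one, ← (Commute.refl γ).pow_right i.val |>.eq]
  rfl

theorem pow_mem_of_fix {α β : MulAut C} (hα : α ^ p = 1) (hβ : β ^ p = 1) (hab : Commute α β)
    (W Z : Subgroup C) (hWa : ∀ w ∈ W, α w ∈ W) (hWb : ∀ w ∈ W, β w ∈ W)
    (h0 : ∀ w ∈ W, β w = w → w ∈ Z) (h1 : ∀ j : ℕ, ∀ w ∈ W, (α * β ^ j) w = w → w ∈ Z) :
    ∀ w ∈ W, w ^ p ∈ Z := by
  intro w hw
  have hWa' : ∀ i : ℕ, ∀ w ∈ W, (α ^ i) w ∈ W := by
    intro i
    induction i with
    | zero => intro w hw; rwa [pow_zero, MulAut.one_apply]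
    | succ i ih => intro w hw; rw [pow_succ', MulAut.mul_apply]; exact hWa _ (ih w hw)
  have hWb' : ∀ i : ℕ, ∀ w ∈ W, (β ^ i) w ∈ W := by
    intro i
    induction i with
    | zero => intro w hw; rwa [pow_zero, MulAut.one_apply]
    | succ i ih => intro w hw; rw [pow_succ', MulAut.mul_apply]; exact hWb _ (ih w hw)
  let f : ZMod p → ZMod p → C := fun i j => (α ^ i.val * β ^ j.val) w
  have hf : ∀ i j, f i j ∈ W := fun i j => hWa' _ _ (hWb' _ _ hw)
  have key := Cfsg.Agent.Lib.CoprimeHyperplane.prod_identity f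
  have hA : ∏ j, f 0 j ∈ Z := by
    have e : ∏ j, f 0 j = ∏ j : ZMod p, (β ^ j.val) w := by
      refine Finset.prod_congr rfl fun j _ => ?_
      simp only [f, ZMod.val_zero, pow_zero, one_mul]
    refine h0 _ (prod_mem fun j _ => hf 0 j) ?_
    rw [e]
    exact norm_fixed hβ w
  have hB : ∀ j, ∏ i, f i (i * j) ∈ Z := by
    intro j
    have hc : Commute α (β ^ j.val) := hab.pow_right _
    have e : ∏ i, f i (i * j) = ∏ i : ZMod p, ((α * β ^ j.val) ^ i.val) w := by
      refine Finset.prod_congr rfl fun i _ => ?_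
      simp only [f]
      rw [hc.mul_pow, Cfsg.Agent.Lib.CoprimeHyperplane.pow_val_mul hβ]
    refine h1 j.val _ (prod_mem fun i _ => hf _ _) ?_
    rw [e]
    refine norm_fixed ?_ w
    rw [hc.mul_pow, hα, one_mul, ← pow_mul, mul_comm, pow_mul, hβ, one_pow]
  have hT : ∏ i, ∏ j, f i j ∈ Z := by
    refine h0 _ (prod_mem fun i _ => prod_mem fun j _ => hf _ _) ?_
    rw [map_prod]
    refine Finset.prod_congr rfl fun i _ => ?_
    have e : ∏ j, f i j = (α ^ i.val) (∏ j : ZMod p, (β ^ j.val) w) := by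
      rw [map_prod]
      rfl
    have hc : Commute β (α ^ i.val) := (hab.symm).pow_right _
    rw [e, ← MulAut.mul_apply, hc.eq, MulAut.mul_apply, norm_fixed hβ]
  have hf0 : f 0 0 = w := by
    simp only [f, ZMod.val_zero, pow_zero, one_mul, MulAut.one_apply]
  rw [hf0] at key
  have e : w ^ p = ((∏ j, f 0 j) * ∏ j, ∏ i, f i (i * j)) * (∏ i, ∏ j, f i j)⁻¹ := by
    rw [key, mul_inv_cancel_right]
  rw [e]
  exact mul_mem (mul_mem hA (prod_mem fun j _ => hB j)) (inv_mem hT)

end Ident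

/-- The identity argument for two elements normalizing an abelian subgroup. -/
theorem ident {G : Type*} [Group G] {p : ℕ} [hp : Fact p.Prime] (C : Subgroup G)
    (hC : ∀ x ∈ C, ∀ y ∈ C, x * y = y * x) {a b : G} (ha : a ∈ normalizer (C : Set G))
    (hb : b ∈ normalizer (C : Set G)) (hap : a ^ p ∈ centralizer (C : Set G))
    (hbp : b ^ p ∈ centralizer (C : Set G)) (hab : ⁅a, b⁆ ∈ centralizer (C : Set G))
    (W Z : Subgroup G) (hWC : W ≤ C) (hWa : ∀ w ∈ W, a * w * a⁻¹ ∈ W)
    (hWb : ∀ w ∈ W, b * w * b⁻¹ ∈ W) (h0 : ∀ w ∈ W, b * w = w * b → w ∈ Z)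
    (h1 : ∀ j : ℕ, ∀ w ∈ W, (a * b ^ j) * w = w * (a * b ^ j) → w ∈ Z) :
    ∀ w ∈ W, w ^ p ∈ Z := by
  letI : CommGroup C :=
    { (inferInstance : Group C) with mul_comm := fun x y => Subtype.ext (hC x x.2 y y.2) }
  let φ : normalizer (C : Set G) →* MulAut C := C.normalizerMonoidHom
  have hφ : ∀ (g : normalizer (C : Set G)) (x : C), ((φ g x : C) : G) = g * x * (g : G)⁻¹ :=
    fun g x => rfl
  have hker : ∀ g : normalizer (C : Set G), (g : G) ∈ centralizer (C : Set G) → φ g = 1 := by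
    intro g hg
    ext x
    rw [hφ, MulAut.one_apply, ← (mem_centralizer_iff.1 hg) x x.2, mul_inv_cancel_right]
  intro w hw
  have hr := pow_mem_of_fix (p := p) (α := φ ⟨a, ha⟩) (β := φ ⟨b, hb⟩)
    (by rw [← map_pow]; exact hker _ hap) (by rw [← map_pow]; exact hker _ hbp)
    (by
      have h2 : φ ⁅(⟨a, ha⟩ : normalizer (C : Set G)), ⟨b, hb⟩⁆ = 1 := hker _ hab
      rw [map_commutatorElement, commutatorElement_eq_one_iff_commute] at h2
      exact h2)
    (W.subgroupOf C) (Z.subgroupOf C)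
    (fun w hw => by
      rw [mem_subgroupOf] at hw ⊢
      rw [hφ]; exact hWa _ hw)
    (fun w hw => by
      rw [mem_subgroupOf] at hw ⊢
      rw [hφ]; exact hWb _ hw)
    (fun w hw h => by
      rw [mem_subgroupOf] at hw ⊢
      refine h0 _ hw ?_
      have h2 := congrArg Subtype.val h
      rw [hφ] at h2
      exact mul_inv_eq_iff_eq_mul.1 h2)
    (fun j w hw h => by
      rw [mem_subgroupOf] at hw ⊢
      refine h1 j _ hw ?_
      rw [← map_pow, ← map_mul] at h
      have h2 := congrArg Subtype.val h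
      rw [hφ] at h2
      exact mul_inv_eq_iff_eq_mul.1 h2)
    ⟨w, hWC hw⟩ (by rw [mem_subgroupOf]; exact hw)
  rw [mem_subgroupOf] at hr
  exact hr

/-- An element outside a subgroup has a primary power outside of it. -/
theorem exists_primary {G : Type*} [Group G] [Finite G] (H : Subgroup G) : ∀ (n : ℕ) {x : G},
    orderOf x = n → x ∉ H →
    ∃ (q : ℕ) (y : G), q.Prime ∧ (∃ k, orderOf y = q ^ k) ∧ y ∈ zpowers x ∧ y ∉ H := by
  intro n
  induction n using Nat.strong_induction_on with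
  | _ n ih =>
    intro x hn hx
    have h1 : orderOf x ≠ 1 := by
      intro h
      rw [orderOf_eq_one_iff] at h
      exact hx (h ▸ one_mem H)
    have hq := Nat.minFac_prime h1
    have : Fact (orderOf x).minFac.Prime := ⟨hq⟩
    obtain ⟨a, b, hab, -, ha, hb, haz, hbz⟩ :=
      Cfsg.Agent.H524.ClassSize.exists_decomp (orderOf x).minFac x
    by_cases haH : a ∈ H
    · have hbH : b ∉ H := fun hbH => hx (hab ▸ mul_mem haH hbH)
      have h2 : orderOf b ∣ orderOf x := orderOf_dvd_of_mem_zpowers hbz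
      have h3 : orderOf b ≠ orderOf x := by
        intro h
        rw [h] at hb
        exact (Nat.Prime.coprime_iff_not_dvd hq).1 hb.symm (Nat.minFac_dvd _)
      have h4 : orderOf b < n := by
        rw [← hn]
        exact lt_of_le_of_ne (Nat.le_of_dvd (orderOf_pos x) h2) h3
      obtain ⟨q, y, h5, h6, h7, h8⟩ := ih _ h4 rfl hbH
      exact ⟨q, y, h5, h6, (zpowers_le.2 hbz) h7, h8⟩
    · exact ⟨_, a, hq, ha, haz, haH⟩

/-- Commuting elements of coprime orders are powers of their product. -/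
theorem mem_zpowers_mul {G : Type*} [Group G] {x w : G} (hc : Commute x w)
    (hcop : (orderOf x).Coprime (orderOf w)) : x ∈ zpowers (x * w) := by
  obtain ⟨a, ha1, ha2⟩ := Nat.chineseRemainder hcop 1 0
  refine ⟨a, ?_⟩
  change (x * w) ^ ((a : ℕ) : ℤ) = x
  rw [zpow_natCast, hc.mul_pow]
  have e1 : x ^ a = x := by
    conv_rhs => rw [← pow_one x]
    exact pow_eq_pow_iff_modEq.2 ha1
  have e2 : w ^ a = 1 := by
    rw [← pow_zero w]
    exact pow_eq_pow_iff_modEq.2 ha2
  rw [e1, e2, mul_one]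

theorem mem_zpowers_mul' {G : Type*} [Group G] {x w : G} (hc : Commute x w)
    (hcop : (orderOf x).Coprime (orderOf w)) : w ∈ zpowers (x * w) := by
  rw [hc.eq]
  exact mem_zpowers_mul hc.symm hcop.symm

/-- The centralizer of an element. -/
abbrev cz {G : Type*} [Group G] (x : G) : Subgroup G := centralizer ({x} : Set G)

section Basic

variable {G : Type*} [Group G]

theorem mem_cz {x y : G} : y ∈ cz x ↔ y * x = x * y := mem_centralizer_singleton_iff

theorem self_mem_cz (x : G) : x ∈ cz x := mem_cz.2 rfl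

theorem cz_le_of_mem_zpowers {x y : G} (h : y ∈ zpowers x) : cz x ≤ cz y := by
  intro g hg
  rw [mem_cz] at hg ⊢
  obtain ⟨n, rfl⟩ := h
  exact ((show Commute g x from hg).zpow_right n).eq

theorem center_le_cz (x : G) : center G ≤ cz x := by
  intro z hz
  rw [mem_cz]
  exact (mem_center_iff.1 hz x).symm

theorem cz_eq_top_iff {x : G} : cz x = ⊤ ↔ x ∈ center G := by
  rw [Subgroup.eq_top_iff', mem_center_iff]
  exact forall_congr' fun g => mem_cz

theorem cz_index_eq_one {x : G} : (cz x).index = 1 ↔ x ∈ center G := by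
  rw [Subgroup.index_eq_one, cz_eq_top_iff]

theorem cz_mul_center {x z : G} (hz : z ∈ center G) : cz (x * z) = cz x := by
  ext g
  rw [mem_cz, mem_cz]
  have h := mem_center_iff.1 hz
  constructor
  · intro h1
    have h2 : g * x * z = x * g * z := by
      rw [mul_assoc, h1, mul_assoc, mul_assoc, ← h g]
    exact mul_right_cancel h2
  · intro h1
    rw [← mul_assoc, h1, mul_assoc, mul_assoc, ← h g]

variable [Finite G]

/-- All elements of `N` have `G`-class size `1` or `m`. -/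
def TwoG (N : Subgroup G) (m : ℕ) : Prop := ∀ x ∈ N, (cz x).index = 1 ∨ (cz x).index = m

variable {N : Subgroup G} {m : ℕ}

theorem TwoG.index_eq (h : TwoG N m) {x : G} (hx : x ∈ N) (hxZ : x ∉ center G) :
    (cz x).index = m :=
  (h x hx).resolve_left fun h1 => hxZ (cz_index_eq_one.1 h1)

theorem TwoG.card_eq (h : TwoG N m) {x y : G} (hx : x ∈ N) (hxZ : x ∉ center G)
    (hy : y ∈ N) (hyZ : y ∉ center G) : Nat.card (cz x) = Nat.card (cz y) := by
  have h1 := (cz x).card_mul_index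
  rw [← (cz y).card_mul_index, h.index_eq hx hxZ, h.index_eq hy hyZ] at h1
  refine Nat.eq_of_mul_eq_mul_right (Nat.pos_of_ne_zero ?_) h1
  rw [← h.index_eq hx hxZ]
  exact Subgroup.index_ne_zero_of_finite

theorem TwoG.eq_of_le (h : TwoG N m) {x y : G} (hx : x ∈ N) (hxZ : x ∉ center G)
    (hy : y ∈ N) (hyZ : y ∉ center G) (hle : cz x ≤ cz y) : cz x = cz y :=
  Subgroup.eq_of_le_of_card_ge hle (h.card_eq hx hxZ hy hyZ).ge

/-- If `x ∉ Z` and `w` commute and have coprime orders then `C(x) ≤ C(w)`. -/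
theorem TwoG.le_of_coprime (h : TwoG N m) {x w : G} (hx : x ∈ N) (hxZ : x ∉ center G) (hw : w ∈ N)
    (hc : Commute x w) (hcop : (orderOf x).Coprime (orderOf w)) : cz x ≤ cz w := by
  have h1 := mem_zpowers_mul hc hcop
  have h2 := mem_zpowers_mul' hc hcop
  have h3 : x * w ∉ center G := fun h4 => hxZ ((zpowers_le.2 h4) h1)
  have h5 := h.eq_of_le (mul_mem hx hw) h3 hx hxZ (cz_le_of_mem_zpowers h1)
  rw [← h5]
  exact cz_le_of_mem_zpowers h2

/-- Two non-central commuting elements of prime power orders for different primes. -/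
theorem TwoG.good_pair (h : TwoG N m) {p q : ℕ} (hp : p.Prime) (hq : q.Prime) (hpq : p ≠ q)
    {x w : G} (hx : x ∈ N) (hw : w ∈ N) (hxp : ∃ k, orderOf x = p ^ k)
    (hwq : ∃ k, orderOf w = q ^ k) (hxZ : x ∉ center G) (hwZ : w ∉ center G) (hc : Commute x w) :
    cz x = cz w ∧ ∀ u ∈ N, u ∈ cz x → cz x ≤ cz u := by
  obtain ⟨k, hk⟩ := hxp
  obtain ⟨l, hl⟩ := hwq
  have hcop : (orderOf x).Coprime (orderOf w) := by
    rw [hk, hl]
    exact Nat.Coprime.pow _ _ ((Nat.coprime_primes hp hq).2 hpq)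
  have h1 : cz x = cz w := h.eq_of_le hx hxZ hw hwZ (h.le_of_coprime hx hxZ hw hc hcop)
  refine ⟨h1, fun u huN hu => ?_⟩
  by_contra hcon
  have hu' : u ∉ centralizer (cz x : Set G) := by
    intro h2
    apply hcon
    intro g hg
    rw [mem_cz]
    exact mem_centralizer_iff.1 h2 g hg
  obtain ⟨s, y, hs, ⟨j, hj⟩, hyz, hy⟩ := exists_primary _ _ rfl hu'
  apply hy
  have hyx : y ∈ cz x := (zpowers_le.2 hu) hyz
  have hyN : y ∈ N := (zpowers_le.2 huN) hyz
  have h3 : cz x ≤ cz y := by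
    by_cases hsp : s = p
    · rw [h1]
      refine h.le_of_coprime hw hwZ hyN ?_ ?_
      · rw [h1, mem_cz] at hyx
        exact hyx.symm
      · rw [hl, hj, hsp]
        exact Nat.Coprime.pow _ _ ((Nat.coprime_primes hq hp).2 hpq.symm)
    · refine h.le_of_coprime hx hxZ hyN ?_ ?_
      · rw [mem_cz] at hyx
        exact hyx.symm
      · rw [hk, hj]
        exact Nat.Coprime.pow _ _ ((Nat.coprime_primes hp hs).2 (Ne.symm hsp))
  rw [mem_centralizer_iff]
  intro g hg
  exact mem_cz.1 (h3 hg)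

end Basic

end Cfsg.Agent.H683.TwoSize
end

-- part: H683/TwoSizeTop
section
/-!
# Groups with two class sizes: the partition case is impossible
-/

set_option autoImplicit false

namespace Cfsg.Agent.H683.TwoSize

open Subgroup
open scoped commutatorElement

variable {G : Type*} [Group G]

/-- Elements of `r`-power order outside of the center force `r ∣ |K : Z|`. -/
theorem dvd_relIndex_center [Finite G] {r k : ℕ} (hr : r.Prime) {K : Subgroup G} {y : G}
    (hyK : y ∈ K) (hyZ : y ∉ center G) (hy : orderOf y = r ^ k) : r ∣ (center G).relIndex K := by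
  have h1 : orderOf (QuotientGroup.mk' ((center G).subgroupOf K) ⟨y, hyK⟩) ∣ r ^ k := by
    rw [← hy, ← Subgroup.orderOf_mk y hyK]
    exact orderOf_map_dvd _ _
  obtain ⟨j, -, hj⟩ := (Nat.dvd_prime_pow hr).1 h1
  have hj0 : j ≠ 0 := by
    rintro rfl
    rw [pow_zero, orderOf_eq_one_iff] at hj
    apply hyZ
    have := (QuotientGroup.eq_one_iff _).1 hj
    exact this
  have h2 : orderOf (QuotientGroup.mk' ((center G).subgroupOf K) ⟨y, hyK⟩) ∣
      (center G).relIndex K := orderOf_dvd_natCard _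
  rw [hj] at h2
  exact (dvd_pow_self r hj0).trans h2

theorem exists_of_dvd_relIndex_center [Finite G] {r : ℕ} (hr : r.Prime) {K : Subgroup G}
    (h : r ∣ (center G).relIndex K) :
    ∃ y ∈ K, y ∉ center G ∧ y ^ r ∈ center G ∧ ∃ k, orderOf y = r ^ k := by
  have : Fact r.Prime := ⟨hr⟩
  obtain ⟨c, hc⟩ := exists_prime_orderOf_dvd_card' (G := K ⧸ (center G).subgroupOf K) r h
  obtain ⟨x, rfl⟩ := QuotientGroup.mk_surjective c
  obtain ⟨a, b, hab, hcomm, ⟨k, hk⟩, hb, haz, hbz⟩ :=
    Cfsg.Agent.H524.ClassSize.exists_decomp r x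
  have h2 : orderOf (b : K ⧸ (center G).subgroupOf K) ∣ r := by
    rw [← hc]
    obtain ⟨n, hn⟩ := hbz
    rw [← hn]
    change orderOf ((x : K ⧸ (center G).subgroupOf K) ^ n) ∣ _
    exact orderOf_dvd_of_mem_zpowers ⟨n, rfl⟩
  have h3 : orderOf (b : K ⧸ (center G).subgroupOf K) ∣ orderOf b :=
    orderOf_map_dvd (QuotientGroup.mk' ((center G).subgroupOf K)) b
  have h4 : orderOf (b : K ⧸ (center G).subgroupOf K) = 1 :=
    Nat.eq_one_of_dvd_coprimes hb h3 h2
  rw [orderOf_eq_one_iff] at h4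
  have h5 : (x : K ⧸ (center G).subgroupOf K) = a := by
    rw [← hab, QuotientGroup.mk_mul, h4, mul_one]
  refine ⟨a, a.2, ?_, ?_, k, ?_⟩
  · intro h6
    have h7 : (a : K ⧸ (center G).subgroupOf K) = 1 := (QuotientGroup.eq_one_iff _).2 h6
    rw [h5, h7, orderOf_one] at hc
    exact hr.one_lt.ne hc
  · have h7 : ((a ^ r : K) : K ⧸ (center G).subgroupOf K) = 1 := by
      rw [QuotientGroup.mk_pow, ← h5, ← hc, pow_orderOf_eq_one]
    have := (QuotientGroup.eq_one_iff _).1 h7
    exact this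
  · rw [Subgroup.orderOf_coe, hk]

/-- The homomorphism `g ↦ [g, y]`. -/
theorem exists_theta {R : Subgroup G} {y : G} (h : ∀ g ∈ R, ⁅g, y⁆ ∈ center G) :
    ∃ θ : R →* center G, ∀ g : R, ((θ g : center G) : G) = ⁅(g : G), y⁆ := by
  refine ⟨MonoidHom.mk' (fun g => ⟨⁅(g : G), y⁆, h g g.2⟩) ?_, fun g => rfl⟩
  intro a b
  apply Subtype.ext
  change ⁅(a : G) * b, y⁆ = ⁅(a : G), y⁆ * ⁅(b : G), y⁆
  have h1 := mem_center_iff.1 (h b b.2) a
  have e : ⁅(a : G) * b, y⁆ = a * ⁅(b : G), y⁆ * y * (a : G)⁻¹ * y⁻¹ := by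
    simp only [commutatorElement_def]; group
  rw [e, h1]
  have h2 := mem_center_iff.1 (h b b.2) ⁅(a : G), y⁆
  rw [h2]
  simp only [commutatorElement_def]; group

/-- `⁅g, y⁆ ^ k = 1` if `⁅g, y⁆` and `y ^ k` are central. -/
theorem theta_pow {g y : G} {k : ℕ} (h : ⁅g, y⁆ ∈ center G) (hy : y ^ k ∈ center G) :
    ⁅g, y⁆ ^ k = 1 := by
  have h1 : g * y * g⁻¹ = ⁅g, y⁆ * y := by rw [commutatorElement_def]; group
  have hc : Commute ⁅g, y⁆ y := (mem_center_iff.1 h y).symm
  have h2 : (g * y * g⁻¹) ^ k = y ^ k := by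
    rw [conj_pow, mem_center_iff.1 hy g, mul_inv_cancel_right]
  rw [h1, hc.mul_pow] at h2
  exact mul_eq_right.1 h2

theorem theta_pow' {g y : G} {k : ℕ} (h : ⁅g, y⁆ ∈ center G) (hg : g ^ k ∈ center G) :
    ⁅g, y⁆ ^ k = 1 := by
  have h1 : ⁅y, g⁆ ∈ center G := by
    rw [← commutatorElement_inv]
    exact inv_mem h
  have h2 := theta_pow h1 hg
  rw [← commutatorElement_inv, inv_pow, inv_eq_one] at h2
  exact h2

theorem mem_normalizer_of {H : Subgroup G} {g : G} (h1 : ∀ x ∈ H, g * x * g⁻¹ ∈ H)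
    (h2 : ∀ x ∈ H, g⁻¹ * x * g ∈ H) : g ∈ normalizer (H : Set G) := by
  rw [mem_normalizer_iff]
  intro x
  refine ⟨h1 x, fun h => ?_⟩
  have := h2 _ h
  have e : g⁻¹ * (g * x * g⁻¹) * g = x := by group
  rwa [e] at this

/-- If `[g, y]` is central then `g` normalizes `C(y)`. -/
theorem mem_normalizer_cz {g y : G} (h : ⁅g, y⁆ ∈ center G) : g ∈ normalizer (cz y : Set G) := by
  have key : ∀ g : G, ⁅g, y⁆ ∈ center G → ∀ x ∈ cz y, g * x * g⁻¹ ∈ cz y := by
    intro g h x hx
    have h1 : g * y * g⁻¹ = y * ⁅g, y⁆ := by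
      rw [mem_center_iff.1 h y, commutatorElement_def]; group
    have h2 : g * x * g⁻¹ ∈ cz (g * y * g⁻¹) := by
      rw [mem_cz] at hx ⊢
      calc g * x * g⁻¹ * (g * y * g⁻¹) = g * (x * y) * g⁻¹ := by group
        _ = g * (y * x) * g⁻¹ := by rw [hx]
        _ = _ := by group
    rwa [h1, cz_mul_center h] at h2
  refine mem_normalizer_of (key g h) fun x hx => ?_
  have h3 : ⁅g⁻¹, y⁆ ∈ center G := by
    have e : ⁅g⁻¹, y⁆ = g⁻¹ * ⁅g, y⁆⁻¹ * g := by simp only [commutatorElement_def]; group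
    rw [e]
    have h4 := mem_center_iff.1 (inv_mem h) g⁻¹
    rw [h4, inv_mul_cancel_right]
    exact inv_mem h
  have := key _ h3 x hx
  rwa [inv_inv] at this

/-- In a Sylow subgroup which is not central and whose center is central in `G`: an element
which is central of order `r` modulo the center. -/
theorem exists_central_mod [Finite G] {r : ℕ} [hr : Fact r.Prime] (R : Sylow r G)
    (hR : ¬ (R : Subgroup G) ≤ center G) :
    ∃ y ∈ (R : Subgroup G), y ∉ center G ∧ y ^ r ∈ center G ∧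
      ∀ g ∈ (R : Subgroup G), ⁅g, y⁆ ∈ center G := by
  let K := (center G).subgroupOf (R : Subgroup G)
  have hK : K ≠ ⊤ := fun h => hR (subgroupOf_eq_top.1 h)
  have hnt : Nontrivial ((R : Subgroup G) ⧸ K) := QuotientGroup.nontrivial_iff.2 hK
  have hQ : IsPGroup r ((R : Subgroup G) ⧸ K) := R.isPGroup'.to_quotient K
  have hc := hQ.center_nontrivial
  have hd : r ∣ Nat.card (center ((R : Subgroup G) ⧸ K)) := by
    obtain ⟨n, hn, hn'⟩ := ((hQ.to_subgroup _).nontrivial_iff_card).1 hc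
    rw [hn']
    exact dvd_pow_self r hn.ne'
  obtain ⟨c, hc⟩ := exists_prime_orderOf_dvd_card' r hd
  obtain ⟨y, hy⟩ := QuotientGroup.mk_surjective (c : (R : Subgroup G) ⧸ K)
  have hc' : orderOf (c : (R : Subgroup G) ⧸ K) = r := by rw [Subgroup.orderOf_coe, hc]
  refine ⟨y, y.2, ?_, ?_, ?_⟩
  · intro h
    have : (y : (R : Subgroup G) ⧸ K) = 1 := (QuotientGroup.eq_one_iff _).2 h
    rw [← hy, this, orderOf_one] at hc'
    exact hr.out.one_lt.ne hc'
  · have : ((y ^ r : (R : Subgroup G)) : (R : Subgroup G) ⧸ K) = 1 := by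
      rw [QuotientGroup.mk_pow, hy]
      exact orderOf_dvd_iff_pow_eq_one.1 hc'.dvd
    have h2 := (QuotientGroup.eq_one_iff _).1 this
    exact h2
  · intro g hg
    have h1 : QuotientGroup.mk' K ⁅(⟨g, hg⟩ : (R : Subgroup G)), y⁆ = 1 := by
      rw [map_commutatorElement, commutatorElement_eq_one_iff_mul_comm]
      have := mem_center_iff.1 c.2 (QuotientGroup.mk' K ⟨g, hg⟩)
      rw [← hy] at this
      exact this
    have h2 := (QuotientGroup.eq_one_iff _).1 h1
    exact h2

/-- A `q`-element normalizing a subgroup of order `< q` centralizes it. -/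
theorem commute_of_card_lt {K : Subgroup G} [Finite K] {q k : ℕ} (hq : q.Prime) {g : G}
    (hg : g ∈ normalizer (K : Set G)) (hgq : g ^ q ^ k = 1) (hK : Nat.card K < q) :
    ∀ v ∈ K, g * v = v * g := by
  classical
  let φ : normalizer (K : Set G) →* MulAut K := K.normalizerMonoidHom
  have := Fintype.ofFinite K
  have h1 : orderOf (φ ⟨g, hg⟩) ∣ q ^ k := by
    apply orderOf_dvd_of_pow_eq_one
    rw [← map_pow]
    have : (⟨g, hg⟩ : normalizer (K : Set G)) ^ q ^ k = 1 := Subtype.ext hgq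
    rw [this, map_one]
  have h2 : orderOf (φ ⟨g, hg⟩) ∣ (Nat.card K).factorial := by
    have h3 : orderOf (MulAut.toPerm K (φ ⟨g, hg⟩)) = orderOf (φ ⟨g, hg⟩) :=
      orderOf_injective _ (by
        intro a b hab
        ext x
        exact congrArg Subtype.val (DFunLike.congr_fun hab x)) _
    rw [← h3]
    have h4 := orderOf_dvd_natCard (MulAut.toPerm K (φ ⟨g, hg⟩))
    rwa [Nat.card_perm] at h4
  have h3 : orderOf (φ ⟨g, hg⟩) = 1 := by
    refine Nat.eq_one_of_dvd_coprimes ?_ h1 h2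
    refine Nat.Coprime.pow_left _ ?_
    rw [hq.coprime_iff_not_dvd, hq.dvd_factorial]
    exact not_le.2 hK
  rw [orderOf_eq_one_iff] at h3
  intro v hv
  have h4 := congrArg Subtype.val (DFunLike.congr_fun h3 ⟨v, hv⟩)
  have h5 : g * v * g⁻¹ = v := h4
  exact mul_inv_eq_iff_eq_mul.1 h5

end Cfsg.Agent.H683.TwoSize
end
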